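import Cfsg.Statements.S3319
import Cfsg.Agent.S0000
import Cfsg.Agent.R2.H3.Main
-- import your own Cfsg.Agent.* helpers here

set_option autoImplicit false
open Cfsg

namespace Cfsg.Agent.S3319

/-- Let G be a finite non-abelian simple group with an involution f such that the largest normal 2-subgroup V of the centralizer C of f is elementary abelian of order 2^11 and C/V is isomorphic to the automorphism group of M₂₂. Then G is of Janko-four type: some involution z has centralizer H whose largest normal 2-subgroup E is extraspecial of order 2^13 containing its centralizer in H, with a normal subgroup N ≥ E of H, N/E of order 3, H/N the automorphism group of M₂₂, and a subgroup P ≤ N of order 3 with C_E(P) = ⟨z⟩, N_H(P) ≠ C_H(P) and P ≤ C_H(P)′. -/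
theorem result {G : Type*} [Group G] [Finite G] [IsSimpleGroup G] (hG : ¬ IsMulCommutative G) (f : G) (hf : orderOf f = 2) (hV : Cfsg.IsElementaryAbelian 2 (Cfsg.twoCoreOfCentralizer f)) (hcard : Nat.card ↥(Cfsg.twoCoreOfCentralizer f) = 2 ^ 11) (hq : Nonempty (↥(Subgroup.centralizer ({f} : Set G)) ⧸ Cfsg.pCore 2 ↥(Subgroup.centralizer ({f} : Set G)) ≃* MulAut ↥Cfsg.Spor.M22)) :
    Cfsg.IsOfJankoFourType G := by
  have hf1 : f ≠ 1 := by
    rintro rfl
    rw [orderOf_one] at hf
    exact absurd hf (by norm_num)
  have hff : f * f = 1 := by rw [← pow_two, ← hf, pow_orderOf_eq_one]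
  exact Cfsg.Agent.H337.isOfJankoFourType_of_isoJ4
    (Cfsg.Agent.R2.H3.Main.main hG Cfsg.Agent.S0000.result hf1 hff hcard hq)

end Cfsg.Agent.S3319
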