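import Cfsg.Statements.S5771
import Cfsg.Agent.R2.T1.Main.Fin

set_option autoImplicit false
open Cfsg

namespace Cfsg.Agent.S5771

/-- Let F be a finite field and let G be the Chevalley group of type E₇ over F (generated by its root elements in the adjoint representation). If H is a maximal subgroup of G whose generalized Fitting subgroup is isomorphic to an alternating group of degree n ≥ 5, then n = 6 or n = 7. -/
theorem result {F : Type*} [Field F] [Fintype F] (H : Subgroup ↥(Cfsg.Lie.chevE7.group F)) (hH : IsCoatom H)
    (n : ℕ) (hn : 5 ≤ n) (hA : Nonempty (↥(Cfsg.generalizedFittingSubgroup ↥H) ≃* ↥(alternatingGroup (Fin n)))) : n = 6 ∨ n = 7 :=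
  Cfsg.Agent.R2.T1.Main.final H hH n hn hA

end Cfsg.Agent.S5771
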