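import Cfsg.Statements.S5929
import Cfsg.Agent.R2.T1.Main29.Fin

set_option autoImplicit false
open Cfsg

namespace Cfsg.Agent.S5929

/-- Let F be a finite field of characteristic p and let G be the Chevalley group of type E₇ over F (generated by its root elements in the adjoint representation; the simple group E₇(q)). If H is a maximal subgroup of G whose generalized Fitting subgroup is isomorphic to an alternating group of degree n ≥ 5, then p ≥ 5, and if n = 7 then p = 5. -/
theorem result
    {F : Type*} [Field F] [Fintype F] (p : ℕ) [Fact p.Prime] [CharP F p] (H : Subgroup ↥(Cfsg.Lie.chevE7.group F)) (hH : IsCoatom H)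
    (n : ℕ) (hn : 5 ≤ n) (hA : Nonempty (↥(Cfsg.generalizedFittingSubgroup ↥H) ≃* ↥(alternatingGroup (Fin n)))) :
    5 ≤ p ∧ (n = 7 → p = 5) :=
  Cfsg.Agent.R2.T1.Main29.final p H hH n hn hA

end Cfsg.Agent.S5929
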